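import Cfsg.Agent.H296.JT.Simp
import Cfsg.Agent.H59.EP.Count
import Cfsg.Agent.S0494
import Cfsg.Agent.S0497

/-!
# S3499, `J₃`: generating tuples of the alternating groups of degrees 5 and 6 (helper296)
-/

set_option autoImplicit false
set_option linter.unusedSectionVars false
set_option linter.unusedVariables false

namespace Cfsg.Agent.H296.JT

open Subgroup

/-- two commuting elements of order `p` -/
theorem sq_dvd {X : Type*} [Group X] [Finite X] {p : ℕ} (hp : p.Prime) {a b : X} (ha : orderOf a = p) (hb : orderOf b = p)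
    (hab : b * a = a * b) (hne : b ∉ zpowers a) : p ^ 2 ∣ Nat.card X := by
  have haC : a ∈ centralizer ({a} : Set X) := mem_centralizer_singleton_iff.2 rfl
  have hbC : b ∈ centralizer ({a} : Set X) := mem_centralizer_singleton_iff.2 hab
  set C := centralizer ({a} : Set X) with hC
  let a' : C := ⟨a, haC⟩
  let b' : C := ⟨b, hbC⟩
  have hn : (zpowers a').Normal := by
    constructor
    rintro n ⟨k, rfl⟩ g
    refine ⟨k, ?_⟩
    have h1 : Commute g a' := Subtype.ext (mem_centralizer_singleton_iff.1 g.2)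
    have := h1.zpow_right k
    show a' ^ k = g * a' ^ k * g⁻¹
    rw [this.eq]; group
  have ha3 : Nat.card (zpowers a') = p := by rw [Nat.card_zpowers]; exact (orderOf_mk _ _).trans ha
  have hb3 : Nat.card (zpowers b') = p := by rw [Nat.card_zpowers]; exact (orderOf_mk _ _).trans hb
  have hinf : zpowers b' ⊓ zpowers a' = ⊥ := by
    have h1 : Nat.card ↥(zpowers b' ⊓ zpowers a') ∣ p := by rw [← hb3]; exact card_dvd_of_le inf_le_left
    rcases (Nat.dvd_prime hp).1 h1 with h2 | h2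
    · exact Subgroup.card_eq_one.1 h2
    · exfalso
      have h3 : zpowers b' ⊓ zpowers a' = zpowers b' := Subgroup.eq_of_le_of_card_ge inf_le_left (by rw [h2, hb3])
      have h4 : b' ∈ zpowers a' := by
        have h5 : b' ∈ zpowers b' ⊓ zpowers a' := by rw [h3]; exact mem_zpowers _
        exact h5.2
      obtain ⟨k, hk⟩ := h4
      exact hne ⟨k, congrArg Subtype.val hk⟩
  have h1 := Cfsg.Agent.H59.EP.card_mul_dvd hinf
  rw [ha3, hb3, ← pow_two] at h1
  exact h1.trans (card_subgroup_dvd_card C)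

theorem not_mem_zpowers {X : Type*} [Group X] [Finite X] {p : ℕ} {a b : X} (ha : orderOf a = p)
    (h : ∀ k < p, a ^ k ≠ b) : b ∉ zpowers a := by
  classical
  rw [mem_zpowers_iff_mem_range_orderOf, ha]
  simp only [Finset.mem_image, Finset.mem_range, not_exists, not_and]
  exact h

/-! ### degree 5 -/

abbrev A5 := alternatingGroup (Fin 5)
abbrev A6 := alternatingGroup (Fin 6)

/-- the 5-cycle -/
def x5 : Equiv.Perm (Fin 5) := ⟨![1, 2, 3, 4, 0], ![4, 0, 1, 2, 3], by decide, by decide⟩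
/-- inverts `x5` -/
def s5 : Equiv.Perm (Fin 5) := ⟨![0, 4, 3, 2, 1], ![0, 4, 3, 2, 1], by decide, by decide⟩
/-- commute with `s5` -/
def t5 : Fin 2 → Equiv.Perm (Fin 5) := ![⟨![0, 3, 4, 1, 2], ![0, 3, 4, 1, 2], by decide, by decide⟩,
  ⟨![0, 2, 1, 4, 3], ![0, 2, 1, 4, 3], by decide, by decide⟩]

theorem x5_mem : x5 ∈ A5 := by rw [Equiv.Perm.mem_alternatingGroup]; decide +kernel
theorem s5_mem : s5 ∈ A5 := by rw [Equiv.Perm.mem_alternatingGroup]; decide +kernel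
theorem t5_mem (i : Fin 2) : t5 i ∈ A5 := by rw [Equiv.Perm.mem_alternatingGroup]; revert i; decide +kernel

def X5 : A5 := ⟨x5, x5_mem⟩
def S5 : A5 := ⟨s5, s5_mem⟩
def T5' (i : Fin 2) : A5 := ⟨t5 i, t5_mem i⟩

theorem free5 : ∀ ρ : Equiv.Perm (Fin 5), ρ * x5 = x5 * ρ → ρ * s5 = s5 * ρ → ∀ i j : Fin 2, ρ * t5 i = t5 j * ρ →
    ρ = 1 ∧ i = j := by decide +kernel

theorem X5_order : orderOf X5 = 5 :=
  have := Fact.mk Nat.prime_five
  orderOf_eq_prime (by decide +kernel) (by decide +kernel)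

theorem S5_sq : S5 ^ 2 = 1 ∧ S5 ≠ 1 ∧ S5 * X5 * S5⁻¹ = X5⁻¹ := by decide +kernel
theorem T5_sq : ∀ i, T5' i ^ 2 = 1 ∧ T5' i ≠ 1 ∧ T5' i ≠ S5 ∧ T5' i * S5 = S5 * T5' i := by decide +kernel
theorem T5_three : ∀ i, (T5' i * X5) ^ 3 = 1 ∧ T5' i * X5 ≠ 1 ∨ (T5' i * X5 * X5) ^ 3 = 1 ∧ T5' i * X5 * X5 ≠ 1 := by
  decide +kernel

theorem card_A5 : Nat.card A5 = 60 := by
  rw [Nat.card_eq_fintype_card]
  decide +kernel

theorem orderOf_dvd_sub {X : Type*} [Group X] {H : Subgroup X} {y : X} (h : y ∈ H) {n : ℕ} (hy : orderOf y = n) :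
    n ∣ Nat.card H := by
  rw [← hy]
  exact Subgroup.orderOf_dvd_natCard H h

theorem gen5 (i : Fin 2) : closure ({X5, S5, T5' i} : Set A5) = ⊤ := by
  have f2 := Fact.mk Nat.prime_two
  have f3 := Fact.mk Nat.prime_three
  set H := closure ({X5, S5, T5' i} : Set A5) with hH
  have hx : X5 ∈ H := subset_closure (by simp)
  have hs : S5 ∈ H := subset_closure (by simp)
  have ht : T5' i ∈ H := subset_closure (by simp)
  have h5 : 5 ∣ Nat.card H := orderOf_dvd_sub hx X5_order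
  have h3 : 3 ∣ Nat.card H := by
    rcases T5_three i with ⟨h1, h2⟩ | ⟨h1, h2⟩
    · exact orderOf_dvd_sub (H.mul_mem ht hx) (orderOf_eq_prime h1 h2)
    · exact orderOf_dvd_sub (H.mul_mem (H.mul_mem ht hx) hx) (orderOf_eq_prime h1 h2)
  obtain ⟨h1, h2, -⟩ := S5_sq
  obtain ⟨h1', h2', h3', h4'⟩ := T5_sq i
  have hos : orderOf S5 = 2 := orderOf_eq_prime h1 h2
  have hot : orderOf (T5' i) = 2 := orderOf_eq_prime h1' h2'
  have h4 : 2 ^ 2 ∣ Nat.card H := by
    refine sq_dvd Nat.prime_two (a := (⟨S5, hs⟩ : H)) (b := ⟨T5' i, ht⟩) ((orderOf_mk _ _).trans hos)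
      ((orderOf_mk _ _).trans hot) (Subtype.ext h4') (not_mem_zpowers ((orderOf_mk _ _).trans hos) ?_)
    intro k hk
    interval_cases k
    · intro e
      exact h2' (by simpa using (congrArg Subtype.val e).symm)
    · intro e
      exact h3' (by simpa using (congrArg Subtype.val e).symm)
  apply Subgroup.eq_top_of_card_eq
  rw [card_A5]
  have h6 : Nat.card H ∣ 60 := by rw [← card_A5]; exact card_subgroup_dvd_card H
  have h7 : 60 ∣ Nat.card H := by omega
  exact Nat.dvd_antisymm h6 h7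

/-- the fibres for the groups of order 60 -/
theorem fib5 {K : Type*} [Group K] [Finite K] {X : Subgroup K} (hs : IsSimpleGroup X) (hX : Nat.card X = 60) :
    240 ≤ {p : K × K × K | (orderOf p.1 = 5 ∧ (p.2.1 * p.1 * p.2.1⁻¹ = p.1⁻¹ ∧ p.2.1 ^ 2 = 1 ∧ p.2.1 ≠ 1) ∧
      (p.2.2 ^ 2 = 1 ∧ p.2.2 ≠ 1 ∧ p.2.2 ≠ p.2.1 ∧ p.2.2 * p.2.1 = p.2.1 * p.2.2)) ∧
      closure ({p.1, p.2.1, p.2.2} : Set K) = X}.ncard := by
  obtain ⟨e⟩ := Cfsg.Agent.S0494.result (G := X) hX
  let ψ : A5 →* K := X.subtype.comp e.symm.toMonoidHom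
  have hψ : Function.Injective ψ := Subtype.val_injective.comp e.symm.injective
  have hr : ψ.range = X := by
    rw [MonoidHom.range_comp, MonoidHom.range_eq_top.2 e.symm.surjective, ← MonoidHom.range_eq_map, X.range_subtype]
  let θ : Equiv.Perm (Fin 5) → A5 →* K := fun σ => ψ.comp (MulAut.conjNormal σ : MulAut A5).toMonoidHom
  have hθ : ∀ σ, Function.Injective (θ σ) := fun σ => hψ.comp (MulAut.conjNormal σ : MulAut A5).injective
  have hrθ : ∀ σ, (θ σ).range = X := by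
    intro σ
    have h0 : (MulAut.conjNormal σ : MulAut A5).toMonoidHom.range = ⊤ :=
      MonoidHom.range_eq_top.2 (MulAut.conjNormal σ : MulAut A5).surjective
    rw [MonoidHom.range_comp, h0, ← MonoidHom.range_eq_map, hr]
  have hc : Nat.card (Equiv.Perm (Fin 5) × Fin 2) = 240 := by
    rw [Nat.card_prod, Nat.card_perm, Nat.card_fin, Nat.card_fin]
    decide
  rw [← hc, ← Set.ncard_univ]
  refine Set.ncard_le_ncard_of_injOn (fun q => (θ q.1 X5, θ q.1 S5, θ q.1 (T5' q.2))) ?_ ?_ (Set.toFinite _)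
  · rintro ⟨σ, i⟩ -
    obtain ⟨h1, h2, h3⟩ := S5_sq
    obtain ⟨h1', h2', h3', h4'⟩ := T5_sq i
    refine ⟨⟨?_, ⟨?_, ?_, ?_⟩, ?_, ?_, ?_, ?_⟩, ?_⟩
    · show orderOf (θ σ X5) = 5
      rw [orderOf_injective _ (hθ σ), X5_order]
    · show θ σ S5 * θ σ X5 * (θ σ S5)⁻¹ = (θ σ X5)⁻¹
      rw [← map_inv, ← map_mul, ← map_mul, ← map_inv, h3]
    · show (θ σ S5) ^ 2 = 1
      rw [← map_pow, h1, map_one]
    · show θ σ S5 ≠ 1
      exact fun h => h2 ((map_eq_one_iff _ (hθ σ)).1 h)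
    · show (θ σ (T5' i)) ^ 2 = 1
      rw [← map_pow, h1', map_one]
    · show θ σ (T5' i) ≠ 1
      exact fun h => h2' ((map_eq_one_iff _ (hθ σ)).1 h)
    · show θ σ (T5' i) ≠ θ σ S5
      exact fun h => h3' (hθ σ h)
    · show θ σ (T5' i) * θ σ S5 = θ σ S5 * θ σ (T5' i)
      rw [← map_mul, ← map_mul, h4']
    · show closure ({θ σ X5, θ σ S5, θ σ (T5' i)} : Set K) = X
      have h5 := congrArg (Subgroup.map (θ σ)) (gen5 i)
      rw [MonoidHom.map_closure, Set.image_insert_eq, Set.image_pair, ← MonoidHom.range_eq_map, hrθ] at h5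
      exact h5
  · rintro ⟨σ, i⟩ - ⟨τ, j⟩ - e
    simp only [Prod.mk.injEq] at e
    obtain ⟨e1, e2, e3⟩ := e
    have f1 := congrArg Subtype.val (hψ e1)
    have f2 := congrArg Subtype.val (hψ e2)
    have f3 := congrArg Subtype.val (hψ e3)
    have g1 : σ * x5 * σ⁻¹ = τ * x5 * τ⁻¹ := f1
    have g2 : σ * s5 * σ⁻¹ = τ * s5 * τ⁻¹ := f2
    have g3 : σ * t5 i * σ⁻¹ = τ * t5 j * τ⁻¹ := f3
    have k : ∀ {a b : Equiv.Perm (Fin 5)}, σ * a * σ⁻¹ = τ * b * τ⁻¹ → (τ⁻¹ * σ) * a = b * (τ⁻¹ * σ) := by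
      intro a b h
      calc (τ⁻¹ * σ) * a = τ⁻¹ * (σ * a * σ⁻¹) * σ := by group
        _ = τ⁻¹ * (τ * b * τ⁻¹) * σ := by rw [h]
        _ = b * (τ⁻¹ * σ) := by group
    obtain ⟨h1, h2⟩ := free5 (τ⁻¹ * σ) (k g1) (k g2) i j (k g3)
    rw [inv_mul_eq_one] at h1
    rw [h1, h2]

/-! ### degree 6 -/

/-- the 5-cycle -/
def x6 : Equiv.Perm (Fin 6) := ⟨![1, 2, 3, 4, 0, 5], ![4, 0, 1, 2, 3, 5], by decide, by decide⟩

def t6 : Fin 4 → Equiv.Perm (Fin 6) := ![⟨![0, 1, 3, 2, 5, 4], ![0, 1, 3, 2, 5, 4], by decide, by decide⟩,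
  ⟨![0, 1, 5, 4, 3, 2], ![0, 1, 5, 4, 3, 2], by decide, by decide⟩,
  ⟨![0, 3, 2, 1, 5, 4], ![0, 3, 2, 1, 5, 4], by decide, by decide⟩,
  ⟨![0, 4, 2, 5, 1, 3], ![0, 4, 2, 5, 1, 3], by decide, by decide⟩]

theorem x6_mem : x6 ∈ A6 := by rw [Equiv.Perm.mem_alternatingGroup]; decide +kernel
theorem t6_mem (i : Fin 4) : t6 i ∈ A6 := by rw [Equiv.Perm.mem_alternatingGroup]; revert i; decide +kernel

def X6 : A6 := ⟨x6, x6_mem⟩
def T6' (i : Fin 4) : A6 := ⟨t6 i, t6_mem i⟩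

theorem free6 : ∀ ρ : Equiv.Perm (Fin 6), ρ * x6 = x6 * ρ → ∀ i j : Fin 4, ρ * t6 i = t6 j * ρ →
    ρ = 1 ∧ i = j := by decide +kernel

theorem X6_order : orderOf X6 = 5 :=
  have := Fact.mk Nat.prime_five
  orderOf_eq_prime (by decide +kernel) (by decide +kernel)

theorem T6_sq : ∀ i, T6' i ^ 2 = 1 ∧ T6' i ≠ 1 := by decide +kernel

/-- a word of order 4 -/
theorem T6_four : ∀ i, (¬ (T6' i * X6) ^ (2 ^ 1) = 1 ∧ (T6' i * X6) ^ (2 ^ (1 + 1)) = 1) ∨
    (¬ (T6' i * X6 * X6) ^ (2 ^ 1) = 1 ∧ (T6' i * X6 * X6) ^ (2 ^ (1 + 1)) = 1) := by decide +kernel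

/-- the words of order 3 -/
def wa (i : Fin 4) : A6 := T6' i * X6 * T6' i * X6 * X6 * T6' i * X6 * X6 * X6
def wb (i : Fin 4) : A6 := T6' i * X6 * X6 * X6 * T6' i * X6 * T6' i * X6 * X6
def wc (i : Fin 4) : A6 := X6 * T6' i * X6 * X6 * X6 * T6' i * X6 * X6 * T6' i

theorem T6_nine : ∀ i, (wa i ^ 3 = 1 ∧ wa i ≠ 1) ∧
    ((wb i ^ 3 = 1 ∧ wb i ≠ 1 ∧ wb i ≠ wa i ∧ wb i ≠ wa i ^ 2 ∧ wb i * wa i = wa i * wb i) ∨
     (wc i ^ 3 = 1 ∧ wc i ≠ 1 ∧ wc i ≠ wa i ∧ wc i ≠ wa i ^ 2 ∧ wc i * wa i = wa i * wc i)) := by decide +kernel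

theorem card_A6 : Nat.card A6 = 360 := by
  have h := two_mul_nat_card_alternatingGroup (α := Fin 6)
  rw [Nat.card_perm, Nat.card_fin] at h
  have h1 : Nat.factorial 6 = 720 := by decide
  rw [h1] at h
  have h2 : 2 * Nat.card A6 = 720 := h
  omega

theorem gen6 (i : Fin 4) : closure ({X6, T6' i} : Set A6) = ⊤ := by
  have f2 := Fact.mk Nat.prime_two
  have f3 := Fact.mk Nat.prime_three
  set H := closure ({X6, T6' i} : Set A6) with hH
  have hx : X6 ∈ H := subset_closure (by simp)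
  have ht : T6' i ∈ H := subset_closure (by simp)
  have h5 : 5 ∣ Nat.card H := orderOf_dvd_sub hx X6_order
  have h4 : 4 ∣ Nat.card H := by
    rcases T6_four i with ⟨h1, h2⟩ | ⟨h1, h2⟩
    · exact orderOf_dvd_sub (H.mul_mem ht hx) (orderOf_eq_prime_pow h1 h2)
    · exact orderOf_dvd_sub (H.mul_mem (H.mul_mem ht hx) hx) (orderOf_eq_prime_pow h1 h2)
  have ha : wa i ∈ H := by unfold wa; repeat (first | exact ht | exact hx | apply H.mul_mem)
  have hb : wb i ∈ H := by unfold wb; repeat (first | exact ht | exact hx | apply H.mul_mem)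
  have hc : wc i ∈ H := by unfold wc; repeat (first | exact ht | exact hx | apply H.mul_mem)
  obtain ⟨⟨h1, h2⟩, h3⟩ := T6_nine i
  have hoa : orderOf (wa i) = 3 := orderOf_eq_prime h1 h2
  have h9 : 3 ^ 2 ∣ Nat.card H := by
    rcases h3 with ⟨g1, g2, g3, g4, g5⟩ | ⟨g1, g2, g3, g4, g5⟩
    · refine sq_dvd Nat.prime_three (a := (⟨wa i, ha⟩ : H)) (b := ⟨wb i, hb⟩) ((orderOf_mk _ _).trans hoa)
        ((orderOf_mk _ _).trans (orderOf_eq_prime g1 g2)) (Subtype.ext g5)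
        (not_mem_zpowers ((orderOf_mk _ _).trans hoa) ?_)
      intro k hk
      interval_cases k
      · intro e
        exact g2 (by simpa using (congrArg Subtype.val e).symm)
      · intro e
        exact g3 (by simpa using (congrArg Subtype.val e).symm)
      · intro e
        exact g4 (by simpa using (congrArg Subtype.val e).symm)
    · refine sq_dvd Nat.prime_three (a := (⟨wa i, ha⟩ : H)) (b := ⟨wc i, hc⟩) ((orderOf_mk _ _).trans hoa)
        ((orderOf_mk _ _).trans (orderOf_eq_prime g1 g2)) (Subtype.ext g5)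
        (not_mem_zpowers ((orderOf_mk _ _).trans hoa) ?_)
      intro k hk
      interval_cases k
      · intro e
        exact g2 (by simpa using (congrArg Subtype.val e).symm)
      · intro e
        exact g3 (by simpa using (congrArg Subtype.val e).symm)
      · intro e
        exact g4 (by simpa using (congrArg Subtype.val e).symm)
  have h180 : 180 ∣ Nat.card H := by omega
  have hle : 180 ≤ Nat.card H := Nat.le_of_dvd Nat.card_pos h180
  by_contra hne
  have hsim : IsSimpleGroup A6 := alternatingGroup.isSimpleGroup (by simp)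
  have hX : ¬ IsMulCommutative A6 := fun h => by
    have h1 : X6 * T6' 0 = T6' 0 * X6 := h.is_comm.comm _ _
    revert h1
    decide +kernel
  have h6 := le_index hX (p := 5) (by norm_num) (by rw [card_A6]; norm_num) hne
  have h7 := H.card_mul_index
  rw [card_A6] at h7
  have h8 : 180 * 5 ≤ 360 := by rw [← h7]; exact Nat.mul_le_mul hle h6
  omega

/-- the fibres for the groups of order 360 -/
theorem fib6 {K : Type*} [Group K] [Finite K] {X : Subgroup K} (hs : IsSimpleGroup X) (hX : Nat.card X = 360) :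
    2880 ≤ {p : K × K | (orderOf p.1 = 5 ∧ p.2 ^ 2 = 1 ∧ p.2 ≠ 1) ∧
      closure ({p.1, p.2} : Set K) = X}.ncard := by
  obtain ⟨e⟩ := Cfsg.Agent.S0497.result (G := X) hX
  let ψ : A6 →* K := X.subtype.comp e.symm.toMonoidHom
  have hψ : Function.Injective ψ := Subtype.val_injective.comp e.symm.injective
  have hr : ψ.range = X := by
    rw [MonoidHom.range_comp, MonoidHom.range_eq_top.2 e.symm.surjective, ← MonoidHom.range_eq_map, X.range_subtype]
  let θ : Equiv.Perm (Fin 6) → A6 →* K := fun σ => ψ.comp (MulAut.conjNormal σ : MulAut A6).toMonoidHom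
  have hθ : ∀ σ, Function.Injective (θ σ) := fun σ => hψ.comp (MulAut.conjNormal σ : MulAut A6).injective
  have hrθ : ∀ σ, (θ σ).range = X := by
    intro σ
    have h0 : (MulAut.conjNormal σ : MulAut A6).toMonoidHom.range = ⊤ :=
      MonoidHom.range_eq_top.2 (MulAut.conjNormal σ : MulAut A6).surjective
    rw [MonoidHom.range_comp, h0, ← MonoidHom.range_eq_map, hr]
  have hc : Nat.card (Equiv.Perm (Fin 6) × Fin 4) = 2880 := by
    rw [Nat.card_prod, Nat.card_perm, Nat.card_fin, Nat.card_fin]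
    decide
  rw [← hc, ← Set.ncard_univ]
  refine Set.ncard_le_ncard_of_injOn (fun q => (θ q.1 X6, θ q.1 (T6' q.2))) ?_ ?_ (Set.toFinite _)
  · rintro ⟨σ, i⟩ -
    obtain ⟨h1', h2'⟩ := T6_sq i
    refine ⟨⟨?_, ?_, ?_⟩, ?_⟩
    · show orderOf (θ σ X6) = 5
      rw [orderOf_injective _ (hθ σ), X6_order]
    · show (θ σ (T6' i)) ^ 2 = 1
      rw [← map_pow, h1', map_one]
    · show θ σ (T6' i) ≠ 1
      exact fun h => h2' ((map_eq_one_iff _ (hθ σ)).1 h)
    · show closure ({θ σ X6, θ σ (T6' i)} : Set K) = X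
      have h5 := congrArg (Subgroup.map (θ σ)) (gen6 i)
      rw [MonoidHom.map_closure, Set.image_pair, ← MonoidHom.range_eq_map, hrθ] at h5
      exact h5
  · rintro ⟨σ, i⟩ - ⟨τ, j⟩ - e
    simp only [Prod.mk.injEq] at e
    obtain ⟨e1, e3⟩ := e
    have f1 := congrArg Subtype.val (hψ e1)
    have f3 := congrArg Subtype.val (hψ e3)
    have g1 : σ * x6 * σ⁻¹ = τ * x6 * τ⁻¹ := f1
    have g3 : σ * t6 i * σ⁻¹ = τ * t6 j * τ⁻¹ := f3
    have k : ∀ {a b : Equiv.Perm (Fin 6)}, σ * a * σ⁻¹ = τ * b * τ⁻¹ → (τ⁻¹ * σ) * a = b * (τ⁻¹ * σ) := by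
      intro a b h
      calc (τ⁻¹ * σ) * a = τ⁻¹ * (σ * a * σ⁻¹) * σ := by group
        _ = τ⁻¹ * (τ * b * τ⁻¹) * σ := by rw [h]
        _ = b * (τ⁻¹ * σ) := by group
    obtain ⟨h1, h2⟩ := free6 (τ⁻¹ * σ) (k g1) i j (k g3)
    rw [inv_mul_eq_one] at h1
    rw [h1, h2]

end Cfsg.Agent.H296.JT
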