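import Cfsg.Agent.H296.JT.Pairs
import Cfsg.Agent.H940.EngData

/-!
# S3499, `J₃`: the number of elementary abelian and simple subgroups (helper296)
-/

set_option autoImplicit false
set_option linter.unusedSectionVars false
set_option linter.unusedVariables false

namespace Cfsg.Agent.H296.JT

open Subgroup Cfsg Cfsg.Spor Cfsg.Agent.H59.EP

/-- the elementary abelian and the proper simple nonabelian subgroups -/
def Adm (K : Type*) [Group K] : Set (Subgroup K) :=
  {X | (∃ s : ℕ, s.Prime ∧ s ∣ Nat.card K ∧ ElAb s X ∧ X ≠ ⊥) ∨ ((IsSimpleGroup X ∧ ¬ Group.IsSolvable X) ∧ X ≠ ⊤)}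

theorem not_comm_of_not_solvable {X : Type*} [Group X] (h : ¬ Group.IsSolvable X) : ¬ ∀ a b : X, a * b = b * a :=
  fun hc => h (Group.isSolvable_of_comm hc)

variable {K : Type} [Group K]

theorem ncard_adm (B : Cfsg.Agent.H940.Eng.Base) (h : IsoJ3 K) : (Adm K).ncard ≤ 141880942 := by
  have := fin_j3 h
  have hsub : Adm K ⊆ (((((((({E : Subgroup K | ElAb 2 E ∧ E ≠ ⊥} ∪ {E : Subgroup K | ElAb 3 E ∧ E ≠ ⊥}) ∪
      {E : Subgroup K | ElAb 5 E ∧ E ≠ ⊥}) ∪ {E : Subgroup K | ElAb 17 E ∧ E ≠ ⊥}) ∪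
      {E : Subgroup K | ElAb 19 E ∧ E ≠ ⊥}) ∪ {X : Subgroup K | IsSimpleGroup X ∧ Nat.card X = 60}) ∪
      {X : Subgroup K | IsSimpleGroup X ∧ Nat.card X = 360}) ∪ {X : Subgroup K | IsSimpleGroup X ∧ Nat.card X = 2448}) ∪
      {X : Subgroup K | IsSimpleGroup X ∧ Nat.card X = 3420}) ∪ {X : Subgroup K | IsSimpleGroup X ∧ Nat.card X = 4080} := by
    rintro X (⟨s, hs, hd, hE, hne⟩ | ⟨⟨hX, hns⟩, hne⟩)
    · rw [card_j3 h] at hd
      rcases Cfsg.Agent.H898.J3Cent.prime_dvd_card hs hd with rfl | rfl | rfl | rfl | rfl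
      · exact Or.inl (Or.inl (Or.inl (Or.inl (Or.inl (Or.inl (Or.inl (Or.inl (Or.inl ⟨hE, hne⟩))))))))
      · exact Or.inl (Or.inl (Or.inl (Or.inl (Or.inl (Or.inl (Or.inl (Or.inl (Or.inr ⟨hE, hne⟩))))))))
      · exact Or.inl (Or.inl (Or.inl (Or.inl (Or.inl (Or.inl (Or.inl (Or.inr ⟨hE, hne⟩)))))))
      · exact Or.inl (Or.inl (Or.inl (Or.inl (Or.inl (Or.inl (Or.inr ⟨hE, hne⟩))))))
      · exact Or.inl (Or.inl (Or.inl (Or.inl (Or.inl (Or.inr ⟨hE, hne⟩)))))
    · have h1 := Cfsg.Agent.H940.Eng.D.ords_j3 B X hX (not_comm_of_not_solvable hns) (by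
        have h2 := card_subgroup_dvd_card X
        rw [card_j3 h] at h2
        exact h2)
      simp only [Cfsg.Agent.H940.Eng.D.o_j3, List.mem_cons, List.not_mem_nil, or_false] at h1
      rcases h1 with h1 | h1 | h1 | h1 | h1 | h1 | h1
      · exact Or.inl (Or.inl (Or.inl (Or.inl (Or.inr ⟨hX, h1⟩))))
      · exact Or.inl (Or.inl (Or.inl (Or.inr ⟨hX, h1⟩)))
      · exact Or.inl (Or.inl (Or.inr ⟨hX, h1⟩))
      · exact Or.inl (Or.inr ⟨hX, h1⟩)
      · exact Or.inr ⟨hX, h1⟩
      · exact (S25920 h hX h1).elim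
      · exact absurd (eq_top_of_card_eq X (by rw [h1, card_j3 h])) hne
  have h2 := T2 h
  have h3 := T3 h
  have h5 := T5 h
  have h17 := T17 h
  have h19 := T19 h
  have g1 := S60 h
  have g2 := S360 h
  have g3 := S2448 h
  have g4 := S3420 h
  have g5 := S4080 h
  refine (Set.ncard_le_ncard hsub (Set.toFinite _)).trans ?_
  refine (Set.ncard_union_le _ _).trans ((Nat.add_le_add ?_ g5).trans (by norm_num : 132327244 + 9553698 ≤ 141880942))
  refine (Set.ncard_union_le _ _).trans ((Nat.add_le_add ?_ g4).trans (by norm_num : 125585452 + 6741792 ≤ 132327244))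
  refine (Set.ncard_union_le _ _).trans ((Nat.add_le_add ?_ g3).trans (by norm_num : 109795312 + 15790140 ≤ 125585452))
  refine (Set.ncard_union_le _ _).trans ((Nat.add_le_add ?_ g2).trans (by norm_num : 79372976 + 30422336 ≤ 109795312))
  refine (Set.ncard_union_le _ _).trans ((Nat.add_le_add ?_ g1).trans (by norm_num : 16581776 + 62791200 ≤ 79372976))
  refine (Set.ncard_union_le _ _).trans ((Nat.add_le_add ?_ h19).trans (by norm_num : 16288016 + 293760 ≤ 16581776))
  refine (Set.ncard_union_le _ _).trans ((Nat.add_le_add ?_ h17).trans (by norm_num : 15918656 + 369360 ≤ 16288016))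
  refine (Set.ncard_union_le _ _).trans ((Nat.add_le_add ?_ h5).trans (by norm_num : 15081440 + 837216 ≤ 15918656))
  exact (Set.ncard_union_le _ _).trans ((Nat.add_le_add h2 h3).trans (by norm_num))

theorem sixteen_adm (h : IsoJ3 K) {X : Subgroup K} (hX : X ∈ Adm K) : 16 ≤ Nat.card (normalizer (X : Set K)) := by
  have := fin_j3 h
  rcases hX with ⟨s, hs, hd, hE, hne⟩ | ⟨⟨hX, hns⟩, hne⟩
  · exact sixteen h hs hd hE hne
  · have h1 := Cfsg.Agent.H168.NoSolv.sixty_le hns
    have h2 : Nat.card X ≤ Nat.card (normalizer (X : Set K)) :=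
      Nat.card_le_card_of_injective _ (Subgroup.inclusion_injective le_normalizer)
    omega

/-! ### transport -/

section transport
variable {N L : Type*} [Group N] [Group L] (e : N ≃* L)

theorem map_adm {X : Subgroup N} (hX : X ∈ Adm N) : X.map e.toMonoidHom ∈ Adm L := by
  rcases hX with ⟨s, hs, hd, hE, hne⟩ | ⟨⟨hX, hns⟩, hne⟩
  · left
    refine ⟨s, hs, ?_, ⟨?_, ?_⟩, ?_⟩
    · rwa [← Nat.card_congr e.toEquiv]
    · rintro _ ⟨a, ha, rfl⟩ _ ⟨b, hb, rfl⟩
      rw [← map_mul, ← map_mul, hE.comm a ha b hb]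
    · rintro _ ⟨a, ha, rfl⟩
      rw [← map_pow, hE.exp a ha, map_one]
    · intro e'
      rw [Subgroup.map_eq_bot_iff_of_injective _ e.injective] at e'
      exact hne e'
  · right
    let f : X ≃* X.map e.toMonoidHom := X.equivMapOfInjective _ e.injective
    refine ⟨⟨f.symm.isSimpleGroup, fun h => hns (Group.isSolvable_of_isSolvable_injective (f := f.toMonoidHom) f.injective)⟩, ?_⟩
    intro e'
    apply hne
    have h1 := congrArg (Subgroup.comap e.toMonoidHom) e'
    rwa [Subgroup.comap_map_eq_self_of_injective e.injective, Subgroup.comap_top] at h1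

theorem ncard_adm_le [Finite N] [Finite L] (e : N ≃* L) : (Adm N).ncard ≤ (Adm L).ncard :=
  Set.ncard_le_ncard_of_injOn (fun X => X.map e.toMonoidHom) (fun X hX => map_adm e hX)
    (fun X _ Y _ h => Subgroup.map_injective e.injective h) (Set.toFinite _)

theorem card_normalizer_map (X : Subgroup N) : Nat.card (normalizer ((X.map e.toMonoidHom : Subgroup L) : Set L)) =
    Nat.card (normalizer (X : Set N)) := by
  have h1 : normalizer ((X.map e.toMonoidHom : Subgroup L) : Set L) = (normalizer (X : Set N)).map e.toMonoidHom := by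
    ext y
    obtain ⟨n, rfl⟩ := e.surjective y
    rw [mem_normalizer_iff]
    constructor
    · intro h
      refine ⟨n, ?_, rfl⟩
      rw [SetLike.mem_coe, mem_normalizer_iff]
      intro z
      have h2 := h (e z)
      have h3 : ∀ w : N, e w ∈ X.map e.toMonoidHom ↔ w ∈ X := fun w =>
        ⟨fun ⟨v, hv, e'⟩ => by rwa [← e.injective e'], fun hw => ⟨w, hw, rfl⟩⟩
      rwa [← map_inv, ← map_mul, ← map_mul, h3, h3] at h2
    · rintro ⟨m, hm, e'⟩ z
      have hmn : m = n := e.injective e'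
      subst hmn
      obtain ⟨w, rfl⟩ := e.surjective z
      rw [SetLike.mem_coe, mem_normalizer_iff] at hm
      have h3 : ∀ w : N, e w ∈ X.map e.toMonoidHom ↔ w ∈ X := fun w =>
        ⟨fun ⟨v, hv, e'⟩ => by rwa [← e.injective e'], fun hw => ⟨w, hw, rfl⟩⟩
      rw [← map_inv, ← map_mul, ← map_mul, h3, h3]
      exact hm w
  rw [h1, card_map_of_injective e.injective]

end transport

end Cfsg.Agent.H296.JT
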