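import Cfsg.Agent.H296.JT.Five
import Cfsg.Agent.H296.JT.Alt
import Cfsg.Agent.SmallSimple.S1000.Order25920Local

/-!
# S3499, `J₃`: the number of simple subgroups (helper296)
-/

set_option autoImplicit false
set_option linter.unusedSectionVars false
set_option linter.unusedVariables false

namespace Cfsg.Agent.H296.JT

open Subgroup Cfsg Cfsg.Spor Cfsg.Agent.J3Type.OneClass

variable {K : Type} [Group K]

theorem ncard_comm_ne (h : IsoJ3 K) {y : K} (hy : y ^ 2 = 1) (hy1 : y ≠ 1) :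
    {x : K | x ^ 2 = 1 ∧ x ≠ 1 ∧ x ≠ y ∧ x * y = y * x}.ncard ≤ 150 := by
  classical
  have := fin_j3 h
  have h1 := ncard_comm h hy hy1
  have e : {x : K | x ^ 2 = 1 ∧ x ≠ 1 ∧ x ≠ y ∧ x * y = y * x} = ({x : K | x ^ 2 = 1 ∧ x * y = y * x} \ {1}) \ {y} := by
    ext x
    simp only [Set.mem_ofPred_eq, Set.mem_sdiff, Set.mem_singleton_iff]
    tauto
  rw [e, Set.ncard_sdiff_singleton_of_mem (by
    refine ⟨⟨hy, rfl⟩, ?_⟩
    simpa using hy1), Set.ncard_sdiff_singleton_of_mem (by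
    refine ⟨one_pow 2, ?_⟩
    rw [one_mul, mul_one])]
  omega

theorem S60 (h : IsoJ3 K) : {X : Subgroup K | IsSimpleGroup X ∧ Nat.card X = 60}.ncard ≤ 62791200 := by
  have := fin_j3 h
  have h1 := mul_ncard_le {X : Subgroup K | IsSimpleGroup X ∧ Nat.card X = 60}
    {p : K × K × K | (orderOf p.1 = 5 ∧ (p.2.1 * p.1 * p.2.1⁻¹ = p.1⁻¹ ∧ p.2.1 ^ 2 = 1 ∧ p.2.1 ≠ 1) ∧
      (p.2.2 ^ 2 = 1 ∧ p.2.2 ≠ 1 ∧ p.2.2 ≠ p.2.1 ∧ p.2.2 * p.2.1 = p.2.1 * p.2.2))}
    (fun p => closure ({p.1, p.2.1, p.2.2} : Set K)) 240 (fun X hX => fib5 hX.1 hX.2)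
  have h2 : {p : K × K × K | (orderOf p.1 = 5 ∧ (p.2.1 * p.1 * p.2.1⁻¹ = p.1⁻¹ ∧ p.2.1 ^ 2 = 1 ∧ p.2.1 ≠ 1) ∧
      (p.2.2 ^ 2 = 1 ∧ p.2.2 ≠ 1 ∧ p.2.2 ≠ p.2.1 ∧ p.2.2 * p.2.1 = p.2.1 * p.2.2))}.ncard ≤ 3348864 * (30 * 150) := by
    refine ncard_sig_le (S := {x : K | orderOf x = 5}) (R := fun x => {q : K × K |
      (q.1 * x * q.1⁻¹ = x⁻¹ ∧ q.1 ^ 2 = 1 ∧ q.1 ≠ 1) ∧
      (q.2 ^ 2 = 1 ∧ q.2 ≠ 1 ∧ q.2 ≠ q.1 ∧ q.2 * q.1 = q.1 * q.2)}) (ncard_five h) fun x hx => ?_
    refine ncard_sig_le (S := {t : K | t * x * t⁻¹ = x⁻¹ ∧ t ^ 2 = 1 ∧ t ≠ 1}) (R := fun t => {q : K |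
      q ^ 2 = 1 ∧ q ≠ 1 ∧ q ≠ t ∧ q * t = t * q}) ?_ fun t ht => ?_
    · rw [← (cn5 h hx).1]
      exact (Set.ncard_le_ncard (fun t ht => ht.1) (Set.toFinite _)).trans (ncard_inverting x)
    · exact ncard_comm_ne h ht.2.1 ht.2.2
  have h3 := h1.trans h2
  omega

theorem S360 (h : IsoJ3 K) : {X : Subgroup K | IsSimpleGroup X ∧ Nat.card X = 360}.ncard ≤ 30422336 := by
  have := fin_j3 h
  have h1 := mul_ncard_le {X : Subgroup K | IsSimpleGroup X ∧ Nat.card X = 360}
    {p : K × K | (orderOf p.1 = 5 ∧ p.2 ^ 2 = 1 ∧ p.2 ≠ 1)}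
    (fun p => closure ({p.1, p.2} : Set K)) 2880 (fun X hX => fib6 hX.1 hX.2)
  have h2 : {p : K × K | (orderOf p.1 = 5 ∧ p.2 ^ 2 = 1 ∧ p.2 ≠ 1)}.ncard ≤ 3348864 * 26163 :=
    ncard_sig_le (S := {x : K | orderOf x = 5}) (R := fun x => {q : K | q ^ 2 = 1 ∧ q ≠ 1}) (ncard_five h)
      fun x hx => ncard_inv h
  have h3 := h1.trans h2
  omega

/-! ### a Sylow subgroup and an involution -/

/-- generating pairs in a simple subgroup -/
theorem fibP {X : Subgroup K} [Finite K] (hs : IsSimpleGroup X) (hna : ¬ IsMulCommutative X) {p a b : ℕ} (hp : p.Prime)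
    (hd : p ∣ Nat.card X) (h2 : ¬ p ^ 2 ∣ Nat.card X) (hlt : Nat.card X < p ^ 2 * (p + 1))
    (ha : ∀ P : Subgroup X, Nat.card P = p → a ≤ (normalizer (P : Set X)).index)
    (hb : ∀ P : Subgroup X, Nat.card P = p → b ≤ {t : X | t ^ 2 = 1 ∧ t ≠ 1 ∧ t ∉ normalizer (P : Set X)}.ncard) :
    a * b ≤ {q : Subgroup K × K | (Nat.card q.1 = p ∧ q.2 ^ 2 = 1 ∧ q.2 ≠ 1) ∧ q.1 ⊔ zpowers q.2 = X}.ncard := by
  refine (le_ncard_sig (S := {P : Subgroup X | Nat.card P = p})
    (R := fun P => {t : X | t ^ 2 = 1 ∧ t ≠ 1 ∧ t ∉ normalizer (P : Set X)}) (le_ncard_sub hp hd h2 ha) hb).trans ?_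
  refine Set.ncard_le_ncard_of_injOn (fun q => (q.1.map X.subtype, (q.2 : K))) ?_ ?_ (Set.toFinite _)
  · rintro ⟨P, t⟩ ⟨hP, ht, ht1, htn⟩
    have hP' : Nat.card P = p := hP
    refine ⟨⟨?_, ?_, ?_⟩, ?_⟩
    · show Nat.card (P.map X.subtype) = p
      rw [card_map_of_injective X.subtype_injective, hP']
    · show (t : K) ^ 2 = 1
      exact congrArg Subtype.val ht
    · show (t : K) ≠ 1
      exact fun e => ht1 (Subtype.ext e)
    · show P.map X.subtype ⊔ zpowers (t : K) = X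
      have h1 : P ⊔ zpowers t = ⊤ := gen_of_not_norm hna hp hd h2 hlt hP' (H := P ⊔ zpowers t) le_sup_left
        (y := t) (mem_sup_right (mem_zpowers t)) htn
      have h3 := congrArg (Subgroup.map X.subtype) h1
      rw [Subgroup.map_sup, MonoidHom.map_zpowers, ← MonoidHom.range_eq_map, X.range_subtype] at h3
      exact h3
  · rintro ⟨P, t⟩ - ⟨P', t'⟩ - e
    simp only [Prod.mk.injEq] at e
    obtain ⟨e1, e2⟩ := e
    rw [Subgroup.map_injective X.subtype_injective e1, Subtype.ext e2]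

/-- the pairs in the big group -/
theorem ncard_pairs (h : IsoJ3 K) {p c : ℕ} (hp : p.Prime) (h2 : ¬ p ^ 2 ∣ Nat.card K)
    (hc : ∀ P : Subgroup K, Nat.card P = p → (normalizer (P : Set K)).index ≤ c) :
    {q : Subgroup K × K | (Nat.card q.1 = p ∧ q.2 ^ 2 = 1 ∧ q.2 ≠ 1)}.ncard ≤ c * 26163 := by
  have := fin_j3 h
  exact ncard_sig_le (S := {P : Subgroup K | Nat.card P = p}) (R := fun P => {q : K | q ^ 2 = 1 ∧ q ≠ 1})
    (ncard_sub_le hp h2 hc) fun x hx => ncard_inv h

/-- the number of Sylow subgroups of a simple group -/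
theorem index_ge {X : Type*} [Group X] [Finite X] [hs : IsSimpleGroup X] {p a : ℕ} (hp : p.Prime) (hlt : p < Nat.card X)
    (h2 : ¬ p ^ 2 ∣ Nat.card X) (hn : ∀ n < a, n % p = 1 → Nat.card X % n = 0 → n = 1) {P : Subgroup X} (hP : Nat.card P = p) :
    a ≤ (normalizer (P : Set X)).index := by
  obtain ⟨n, h1, h3⟩ := card_norm hp h2 hP
  have h4 := (normalizer (P : Set X)).card_mul_index
  have h5 : (normalizer (P : Set X)).index = n := by
    rw [h3] at h4
    exact Nat.eq_of_mul_eq_mul_left Nat.card_pos h4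
  rw [h5]
  by_contra hcon
  push Not at hcon
  have h6 := hn n hcon h1 (by rw [h3]; exact Nat.mul_mod_left _ _)
  rw [h6, index_eq_one, normalizer_eq_top_iff] at h5
  rcases hs.eq_bot_or_eq_top_of_normal P h5 with h7 | h7
  · rw [h7, card_bot] at hP
    exact hp.one_lt.ne hP
  · rw [h7, card_top] at hP
    omega

/-- involutions -/
theorem inv_ge (h : IsoJ3 K) {X : Subgroup K} {a g n : ℕ} (hn : Nat.card X = n) (h2 : 2 ∣ n) (hg : Nat.gcd n 1920 = g)
    (ha : g * a = n) : a ≤ {t : X | t ^ 2 = 1 ∧ t ≠ 1}.ncard := by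
  have := fin_j3 h
  have f2 := Fact.mk Nat.prime_two
  obtain ⟨s, hs⟩ := exists_prime_orderOf_dvd_card' (G := X) 2 (by rw [hn]; exact h2)
  have hs2 : s ^ 2 = 1 := by rw [← hs, pow_orderOf_eq_one]
  have hs1 : s ≠ 1 := by rintro rfl; rw [orderOf_one] at hs; norm_num at hs
  refine le_trans ?_ (index_cent_le s (S := {t : X | t ^ 2 = 1 ∧ t ≠ 1}) fun g => ⟨?_, ?_⟩)
  · have h1 := (centralizer ({s} : Set X)).card_mul_index
    rw [hn] at h1
    have h3 : Nat.card (centralizer ({s} : Set X)) ∣ n := by rw [← hn]; exact card_subgroup_dvd_card _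
    have h4 : Nat.card (centralizer ({s} : Set X)) ∣ 1920 := by
      rw [← ((CpAutJThree.base h).2.1 (s : K) (by rw [Subgroup.orderOf_coe, hs])).2.1]
      have h5 : (centralizer ({s} : Set X)).map X.subtype ≤ centralizer ({(s : K)} : Set K) := by
        rintro _ ⟨y, hy, rfl⟩
        rw [mem_centralizer_singleton_iff]
        exact congrArg Subtype.val (mem_centralizer_singleton_iff.1 hy)
      have h6 := card_dvd_of_le h5
      rwa [card_map_of_injective X.subtype_injective] at h6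
    have h5 : Nat.card (centralizer ({s} : Set X)) ∣ g := by rw [← hg]; exact Nat.dvd_gcd h3 h4
    have hg0 : 0 < g := by
      rw [← hg]; exact Nat.gcd_pos_of_pos_right _ (by norm_num)
    have h6 := Nat.le_of_dvd hg0 h5
    by_contra hcon
    push Not at hcon
    have h7 : Nat.card (centralizer ({s} : Set X)) * (centralizer ({s} : Set X)).index ≤ g * (centralizer ({s} : Set X)).index :=
      Nat.mul_le_mul_right _ h6
    have h8 : g * (centralizer ({s} : Set X)).index < g * a := Nat.mul_lt_mul_of_pos_left hcon hg0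
    omega
  · rw [conj_pow, hs2, mul_one, mul_inv_cancel]
  · intro e
    apply hs1
    rwa [mul_inv_eq_one, mul_eq_left] at e

/-! ### the order 3420 -/

theorem norm_map_le {X : Subgroup K} {P : Subgroup X} : (normalizer (P : Set X)).map X.subtype ≤
    normalizer ((P.map X.subtype : Subgroup K) : Set K) := by
  rintro _ ⟨y, hy, rfl⟩
  rw [SetLike.mem_coe, mem_normalizer_iff] at hy
  rw [mem_normalizer_iff]
  intro z
  constructor
  · rintro ⟨w, hw, rfl⟩
    exact ⟨y * w * y⁻¹, (hy w).1 hw, rfl⟩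
  · rintro ⟨w, hw, e⟩
    refine ⟨y⁻¹ * w * y, ?_, ?_⟩
    · rw [SetLike.mem_coe, hy]
      have e1 : y * (y⁻¹ * w * y) * y⁻¹ = w := by group
      rw [e1]
      exact hw
    · show (y : K)⁻¹ * (w : K) * y = z
      have e1 : (w : K) = (y : K) * z * (y : K)⁻¹ := e
      rw [e1]
      group

theorem S3420 (h : IsoJ3 K) : {X : Subgroup K | IsSimpleGroup X ∧ Nat.card X = 3420}.ncard ≤ 6741792 := by
  have := fin_j3 h
  have h1 := mul_ncard_le {X : Subgroup K | IsSimpleGroup X ∧ Nat.card X = 3420}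
    {q : Subgroup K × K | (Nat.card q.1 = 19 ∧ q.2 ^ 2 = 1 ∧ q.2 ≠ 1)}
    (fun q => q.1 ⊔ zpowers q.2) (20 * 57) (fun X hX => by
      obtain ⟨hs, hX⟩ := hX
      have hna : ¬ IsMulCommutative X := Cfsg.Agent.SmallSimple.Embed.not_comm_of_card_not_prime (by rw [hX]; norm_num)
      refine fibP hs hna (by norm_num) (by rw [hX]; norm_num) (by rw [hX]; norm_num) (by rw [hX]; norm_num)
        (fun P hP => index_ge (by norm_num) (by rw [hX]; norm_num) (by rw [hX]; norm_num) (by rw [hX]; decide) hP)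
        (fun P hP => ?_)
      refine (inv_ge h hX (by norm_num) (g := 60) (a := 57) (by norm_num) (by norm_num)).trans
        (Set.ncard_le_ncard ?_ (Set.toFinite _))
      rintro t ⟨ht, ht1⟩
      refine ⟨ht, ht1, fun hn => ?_⟩
      have h3 : (t : K) ∈ normalizer ((P.map X.subtype : Subgroup K) : Set K) := norm_map_le ⟨t, hn, rfl⟩
      have h4 := orderOf_dvd_sub h3 (n := 2) (by rw [Subgroup.orderOf_coe]; exact orderOf_eq_prime ht ht1)
      rw [(Cfsg.Agent.H715.Fpr.J3.cn19 h (R := P.map X.subtype)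
        (by rw [card_map_of_injective X.subtype_injective, hP])).2] at h4
      norm_num at h4)
  have h2 := ncard_pairs h (p := 19) (by norm_num) (by rw [card_j3 h]; norm_num) (idx19 h)
  have h3 := h1.trans h2
  omega

/-! ### the order 2448 -/

/-- the involutions normalizing a subgroup of order 17 -/
theorem ncard_norm17 (h : IsoJ3 K) {P : Subgroup K} (hP : Nat.card P = 17) :
    {t : K | t ^ 2 = 1 ∧ t ≠ 1 ∧ t ∈ normalizer (P : Set K)}.ncard ≤ 17 := by
  have := fin_j3 h
  obtain ⟨x, hx, rfl⟩ := exists_gen (by norm_num) hP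
  have hC := (H898.J3Cent.seventeen h hx).1
  rw [← hC]
  refine (Set.ncard_le_ncard ?_ (Set.toFinite _)).trans (ncard_inverting x)
  rintro t ⟨ht, ht1, htn⟩
  have hno : t * x ≠ x * t := by
    intro e
    have h1 := orderOf_dvd_sub (H := centralizer ({x} : Set K)) (mem_centralizer_singleton_iff.2 e)
      (orderOf_eq_prime ht ht1)
    rw [hC] at h1
    norm_num at h1
  have h1 : t * x * t⁻¹ ∈ zpowers x := (mem_normalizer_iff.1 htn x).1 (mem_zpowers x)
  have hti : t⁻¹ = t := by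
    rw [inv_eq_iff_mul_eq_one, ← pow_two]; exact ht
  show t * x * t⁻¹ = x⁻¹
  by_contra hne
  apply hno
  set y := t * x * t⁻¹ * x with hy
  have hyz : y ∈ zpowers x := mul_mem h1 (mem_zpowers x)
  have hy1 : y ≠ 1 := by
    intro e
    apply hne
    rw [hy, mul_eq_one_iff_eq_inv] at e
    exact e
  have hcomm : t * x * t⁻¹ * x = x * (t * x * t⁻¹) := by
    obtain ⟨k, hk⟩ := mem_zpowers_iff.1 h1
    rw [← hk]
    exact ((Commute.refl x).zpow_left k).eq
  have hty : t * y = y * t := by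
    have tt : t * t = 1 := by rw [← pow_two]; exact ht
    calc t * y = t * (t * x * t⁻¹ * x) := by rw [hy]
      _ = t * (x * (t * x * t⁻¹)) := by rw [hcomm]
      _ = (t * x * t⁻¹) * (t * t) * x * t⁻¹ := by group
      _ = (t * x * t⁻¹) * x * t⁻¹ := by rw [tt, mul_one]
      _ = y * t := by rw [← hy, hti]
  have hzy : zpowers y = zpowers x := by
    apply eq_of_le_of_card_ge (zpowers_le.2 hyz)
    have h7 : orderOf y ∣ 17 := by
      have h7 := Subgroup.orderOf_dvd_natCard _ hyz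
      rwa [Nat.card_zpowers, hx] at h7
    have h8 : orderOf y = 17 := ((Nat.dvd_prime (by norm_num)).1 h7).resolve_left
      fun h => hy1 (orderOf_eq_one_iff.1 h)
    rw [Nat.card_zpowers, Nat.card_zpowers, h8, hx]
  have hxy : x ∈ zpowers y := by rw [hzy]; exact mem_zpowers x
  obtain ⟨k, hk⟩ := mem_zpowers_iff.1 hxy
  rw [← hk]
  exact ((show Commute t y from hty).zpow_right k).eq

theorem S2448 (h : IsoJ3 K) : {X : Subgroup K | IsSimpleGroup X ∧ Nat.card X = 2448}.ncard ≤ 15790140 := by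
  have := fin_j3 h
  have h1 := mul_ncard_le {X : Subgroup K | IsSimpleGroup X ∧ Nat.card X = 2448}
    {q : Subgroup K × K | (Nat.card q.1 = 17 ∧ q.2 ^ 2 = 1 ∧ q.2 ≠ 1)}
    (fun q => q.1 ⊔ zpowers q.2) (18 * 34) (fun X hX => by
      obtain ⟨hs, hX⟩ := hX
      have hna : ¬ IsMulCommutative X := Cfsg.Agent.SmallSimple.Embed.not_comm_of_card_not_prime (by rw [hX]; norm_num)
      refine fibP hs hna (by norm_num) (by rw [hX]; norm_num) (by rw [hX]; norm_num) (by rw [hX]; norm_num)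
        (fun P hP => index_ge (by norm_num) (by rw [hX]; norm_num) (by rw [hX]; norm_num) (by rw [hX]; decide) hP)
        (fun P hP => ?_)
      have h3 := inv_ge h hX (by norm_num) (g := 48) (a := 51) (by norm_num) (by norm_num)
      have h4 : {t : X | t ^ 2 = 1 ∧ t ≠ 1 ∧ t ∈ normalizer (P : Set X)}.ncard ≤ 17 := by
        refine le_trans ?_ (ncard_norm17 h (P := P.map X.subtype)
          (by rw [card_map_of_injective X.subtype_injective, hP]))
        refine Set.ncard_le_ncard_of_injOn (fun t => (t : K)) ?_ (Subtype.val_injective.injOn) (Set.toFinite _)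
        rintro t ⟨ht, ht1, htn⟩
        exact ⟨congrArg Subtype.val ht, fun e => ht1 (Subtype.ext e), norm_map_le ⟨t, htn, rfl⟩⟩
      have h5 : {t : X | t ^ 2 = 1 ∧ t ≠ 1}.ncard ≤ {t : X | t ^ 2 = 1 ∧ t ≠ 1 ∧ t ∉ normalizer (P : Set X)}.ncard +
          {t : X | t ^ 2 = 1 ∧ t ≠ 1 ∧ t ∈ normalizer (P : Set X)}.ncard := by
        refine (Set.ncard_le_ncard ?_ (Set.toFinite _)).trans (Set.ncard_union_le _ _)
        rintro t ⟨ht, ht1⟩
        by_cases htn : t ∈ normalizer (P : Set X)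
        · exact Or.inr ⟨ht, ht1, htn⟩
        · exact Or.inl ⟨ht, ht1, htn⟩
      omega)
  have h2 := ncard_pairs h (p := 17) (by norm_num) (by rw [card_j3 h]; norm_num) (idx17 h)
  have h3 := h1.trans h2
  omega

/-! ### the order 4080 -/

theorem inf_bot {X : Type*} [Group X] [Finite X] {p : ℕ} (hp : p.Prime) {P Q : Subgroup X} (hP : Nat.card P = p)
    (hQ : Nat.card Q = p) (hne : P ≠ Q) : P ⊓ Q = ⊥ := by
  have h1 : Nat.card ↥(P ⊓ Q) ∣ p := by rw [← hP]; exact card_dvd_of_le inf_le_left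
  rcases (Nat.dvd_prime hp).1 h1 with h2 | h2
  · exact Subgroup.card_eq_one.1 h2
  · exfalso
    have h3 : P ⊓ Q = P := Subgroup.eq_of_le_of_card_ge inf_le_left (by rw [h2, hP])
    have h4 : P ⊓ Q = Q := Subgroup.eq_of_le_of_card_ge inf_le_right (by rw [h2, hQ])
    exact hne (h3.symm.trans h4)

/-- another Sylow subgroup does not normalize -/
theorem not_norm {X : Type*} [Group X] [Finite X] {p : ℕ} (hp : p.Prime) (h2 : ¬ p ^ 2 ∣ Nat.card X) {P Q : Subgroup X}
    (hP : Nat.card P = p) (hQ : Nat.card Q = p) (hne : P ≠ Q) : ∃ y ∈ Q, y ∉ normalizer (P : Set X) := by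
  by_contra hcon
  push Not at hcon
  have hQN : Q ≤ normalizer (P : Set X) := hcon
  have hPN : P ≤ normalizer (P : Set X) := le_normalizer
  have hinf : Q.subgroupOf (normalizer (P : Set X)) ⊓ P.subgroupOf (normalizer (P : Set X)) = ⊥ := by
    rw [eq_bot_iff]
    rintro y ⟨hy1, hy2⟩
    have h3 : (y : X) ∈ P ⊓ Q := ⟨hy2, hy1⟩
    rw [inf_bot hp hP hQ hne, mem_bot] at h3
    rw [mem_bot]
    exact Subtype.ext h3
  have h3 := Cfsg.Agent.H59.EP.card_mul_dvd hinf
  rw [Nat.card_congr (Subgroup.subgroupOfEquivOfLe hQN).toEquiv, Nat.card_congr (Subgroup.subgroupOfEquivOfLe hPN).toEquiv,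
    hP, hQ, ← pow_two] at h3
  exact h2 (h3.trans (card_subgroup_dvd_card _))

theorem S4080 (h : IsoJ3 K) : {X : Subgroup K | IsSimpleGroup X ∧ Nat.card X = 4080}.ncard ≤ 9553698 := by
  classical
  have := fin_j3 h
  have hp : Nat.Prime 17 := by norm_num
  have h1 := mul_ncard_le {X : Subgroup K | IsSimpleGroup X ∧ Nat.card X = 4080}
    {q : Subgroup K × Subgroup K | (Nat.card q.1 = 17 ∧ Nat.card q.2 = 17)}
    (fun q => q.1 ⊔ q.2) (120 * 119) (fun X hX => by
      obtain ⟨hs, hX⟩ := hX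
      have hna : ¬ IsMulCommutative X := Cfsg.Agent.SmallSimple.Embed.not_comm_of_card_not_prime (by rw [hX]; norm_num)
      have h2X : ¬ 17 ^ 2 ∣ Nat.card X := by rw [hX]; norm_num
      have h3 : 120 ≤ {P : Subgroup X | Nat.card P = 17}.ncard := le_ncard_sub hp (by rw [hX]; norm_num) h2X
        (fun P hP => index_ge hp (by rw [hX]; norm_num) h2X (by rw [hX]; decide) hP)
      refine (le_ncard_sig (S := {P : Subgroup X | Nat.card P = 17})
        (R := fun P => {Q : Subgroup X | Nat.card Q = 17 ∧ P ≠ Q}) h3 (b := 119) fun P hP => ?_).trans ?_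
      · have e : {Q : Subgroup X | Nat.card Q = 17 ∧ P ≠ Q} = {Q : Subgroup X | Nat.card Q = 17} \ {P} := by
          ext Q
          simp only [Set.mem_ofPred_eq, Set.mem_sdiff, Set.mem_singleton_iff]
          constructor
          · rintro ⟨h1, h2⟩
            exact ⟨h1, fun h => h2 h.symm⟩
          · rintro ⟨h1, h2⟩
            exact ⟨h1, fun h => h2 h.symm⟩
        rw [e, Set.ncard_sdiff_singleton_of_mem hP]
        omega
      · refine Set.ncard_le_ncard_of_injOn (fun q => (q.1.map X.subtype, q.2.map X.subtype)) ?_ ?_ (Set.toFinite _)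
        · rintro ⟨P, Q⟩ ⟨hP, hQ, hne⟩
          have hP' : Nat.card P = 17 := hP
          refine ⟨⟨?_, ?_⟩, ?_⟩
          · show Nat.card (P.map X.subtype) = 17
            rw [card_map_of_injective X.subtype_injective, hP']
          · show Nat.card (Q.map X.subtype) = 17
            rw [card_map_of_injective X.subtype_injective, hQ]
          · show P.map X.subtype ⊔ Q.map X.subtype = X
            obtain ⟨y, hy, hyn⟩ := not_norm hp h2X hP' hQ hne
            have h1 : P ⊔ Q = ⊤ := gen_of_not_norm hna hp (by rw [hX]; norm_num) h2X (by rw [hX]; norm_num) hP'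
              (H := P ⊔ Q) le_sup_left (y := y) (mem_sup_right hy) hyn
            have h3 := congrArg (Subgroup.map X.subtype) h1
            rw [Subgroup.map_sup, ← MonoidHom.range_eq_map, X.range_subtype] at h3
            exact h3
        · rintro ⟨P, t⟩ - ⟨P', t'⟩ - e
          simp only [Prod.mk.injEq] at e
          obtain ⟨e1, e2⟩ := e
          rw [Subgroup.map_injective X.subtype_injective e1, Subgroup.map_injective X.subtype_injective e2])
  have h17 : {P : Subgroup K | Nat.card P = 17}.ncard ≤ 369360 :=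
    ncard_sub_le hp (by rw [card_j3 h]; norm_num) (idx17 h)
  have h2 : {q : Subgroup K × Subgroup K | (Nat.card q.1 = 17 ∧ Nat.card q.2 = 17)}.ncard ≤ 369360 * 369360 :=
    ncard_sig_le (S := {P : Subgroup K | Nat.card P = 17}) (R := fun P => {P : Subgroup K | Nat.card P = 17}) h17
      fun _ _ => h17
  have h3 := h1.trans h2
  omega

/-! ### the order 25920 -/

theorem relIndex_mul_card' {X : Type*} [Group X] {H L : Subgroup X} (hHL : H ≤ L) :
    H.relIndex L * Nat.card H = Nat.card L := by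
  have h := (H.subgroupOf L).index_mul_card
  rw [Nat.card_congr (Subgroup.subgroupOfEquivOfLe hHL).toEquiv] at h
  exact h

theorem S25920 (h : IsoJ3 K) {X : Subgroup K} (hs : IsSimpleGroup X) (hX : Nat.card X = 25920) : False := by
  have := fin_j3 h
  have f5 := Fact.mk Nat.prime_five
  obtain ⟨x, hx⟩ := exists_prime_orderOf_dvd_card' (G := X) 5 (by rw [hX]; norm_num)
  have hxK : orderOf (x : K) = 5 := by rw [Subgroup.orderOf_coe, hx]
  have hC := Cfsg.Agent.SmallSimple.S1000.Order25920Local.self_cent hX hx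
  obtain ⟨hcK, hnK⟩ := cn5 h hxK
  have hP : Nat.card (zpowers x) = 5 := by rw [Nat.card_zpowers, hx]
  obtain ⟨n, hn, hcard⟩ := card_norm Nat.prime_five (by rw [hX]; norm_num) hP
  -- `|N| ≤ 10`
  set N := normalizer ((zpowers x : Subgroup X) : Set X) with hN
  have hmap : (zpowers x).map X.subtype = zpowers (x : K) := MonoidHom.map_zpowers _ _
  have h1 : (centralizer ({(x : K)} : Set K)).relIndex (normalizer ((zpowers (x : K) : Subgroup K) : Set K)) = 2 := by
    have h2 := relIndex_mul_card' (H := centralizer ({(x : K)} : Set K))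
      (L := normalizer ((zpowers (x : K) : Subgroup K) : Set K)) (cent_le_norm (s := 2) rfl)
    rw [hcK, hnK] at h2
    omega
  have h2 : N.map X.subtype ≤ normalizer ((zpowers (x : K) : Subgroup K) : Set K) := by
    rw [← hmap]
    exact norm_map_le
  have h3 := relIndex_le_of_le_right (H := centralizer ({(x : K)} : Set K)) h2 (by rw [h1]; norm_num)
  rw [h1] at h3
  have h4 := relIndex_mul_card' (H := centralizer ({(x : K)} : Set K) ⊓ N.map X.subtype) (L := N.map X.subtype) inf_le_right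
  rw [inf_relIndex_right, card_map_of_injective X.subtype_injective] at h4
  have h5 : Nat.card ↥(centralizer ({(x : K)} : Set K) ⊓ N.map X.subtype) ≤ 5 := by
    rw [← hP, ← card_map_of_injective X.subtype_injective]
    refine Nat.card_le_card_of_injective _ (Subgroup.inclusion_injective ?_)
    rintro _ ⟨hy, ⟨y, hyN, rfl⟩⟩
    refine ⟨y, ?_, rfl⟩
    rw [← hC, SetLike.mem_coe, mem_centralizer_singleton_iff]
    exact Subtype.ext (mem_centralizer_singleton_iff.1 hy)
  have h6 : Nat.card N ≤ 10 := by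
    rw [← h4]
    exact (Nat.mul_le_mul h3 h5)
  have h7 : 5 ∣ Nat.card N := by rw [← hP]; exact card_dvd_of_le le_normalizer
  have h8 : 0 < Nat.card N := Nat.card_pos
  rw [hX] at hcard
  have h9 : Nat.card N = 5 ∨ Nat.card N = 10 := by omega
  rcases h9 with h9 | h9 <;> rw [h9] at hcard <;> omega

end Cfsg.Agent.H296.JT
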